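import Mathlib
import Cfsg.Agent.S0000
import Cfsg.Agent.H434.RC.NsOrbKnown

/-!
# `NsOrb` for odd primes (helper434)
-/

set_option autoImplicit false

namespace Cfsg.Agent.H434.RC

open Cfsg Cfsg.Agent.H527.RC

universe u

/-- **S4191 (B0-ns)**: `M` with a normal `p`-complement `K`, `p` odd, without nontrivial solvable normal subgroups inside
`K`: some `x ∈ K` is centralized only by those `p`-elements which centralize `K`. -/
theorem nsOrb {p : ℕ} (hp : p.Prime) (h2 : p ≠ 2) : NsOrb.{u} p :=
  nsOrb_known hp h2 fun S _ _ _ => Cfsg.Agent.S0000.result (G := S)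

end Cfsg.Agent.H434.RC
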