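import Mathlib

/-!
# Rigid subsets for `p`-groups, `p` odd (helper434)

`exists_rigid` : a `p`-group `H` (`p` odd) acting on a finite set `T` has a subset `Γ` preserved only by the elements
acting trivially on `T`.
-/

set_option autoImplicit false

namespace Cfsg.Agent.H434.RC

open Subgroup

variable {G Ω : Type*} [Group G] [Finite G] [MulAction G Ω]

/-- A proper subgroup of a `p`-group lies in a proper normal subgroup. -/
theorem exists_normal_proper {p : ℕ} [Fact p.Prime] {H : Subgroup G} (hH : IsPGroup p H) (D : Subgroup G) (hD : ¬ H ≤ D) :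
    ∃ L : Subgroup G, L ≤ H ∧ H ⊓ D ≤ L ∧ ¬ H ≤ L ∧ ∀ h ∈ H, ∀ l ∈ L, h * l * h⁻¹ ∈ L := by
  have h1 : D.subgroupOf H ≠ ⊤ := fun h => hD (Subgroup.subgroupOf_eq_top.1 h)
  obtain ⟨N, hN, hDN⟩ := (IsCoatomic.eq_top_or_exists_le_coatom (D.subgroupOf H)).resolve_left h1
  have hnil : Group.IsNilpotent H := hH.isNilpotent
  have hNn : N.Normal := Subgroup.NormalizerCondition.normal_of_coatom N Group.normalizerCondition_of_isNilpotent hN
  refine ⟨N.map H.subtype, ?_, ?_, ?_, ?_⟩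
  · rintro _ ⟨x, -, rfl⟩
    exact x.2
  · intro x hx
    exact ⟨⟨x, hx.1⟩, hDN (Subgroup.mem_subgroupOf.2 hx.2), rfl⟩
  · intro h
    apply hN.1
    rw [eq_top_iff]
    intro x _
    obtain ⟨y, hy, hyx⟩ := h x.2
    have : y = x := Subtype.ext hyx
    exact this ▸ hy
  · rintro h hh _ ⟨x, hx, rfl⟩
    exact ⟨⟨h, hh⟩ * x * ⟨h, hh⟩⁻¹, hNn.conj_mem x hx _, rfl⟩

theorem exists_rigid {p : ℕ} [hp : Fact p.Prime] (h2 : p ≠ 2) : ∀ (n : ℕ) (H : Subgroup G), IsPGroup p H →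
    ∀ T : Set Ω, T.Finite → T.ncard ≤ n → (∀ g ∈ H, ∀ ω ∈ T, g • ω ∈ T) →
    ∃ Γ ⊆ T, ∀ g ∈ H, (∀ ω, g • ω ∈ Γ ↔ ω ∈ Γ) → ∀ ω ∈ T, g • ω = ω := by
  classical
  intro n
  induction n with
  | zero =>
    intro H _ T hT hn _
    have h0 : T = ∅ := by
      rw [← Set.ncard_eq_zero hT]
      omega
    subst h0
    exact ⟨∅, subset_rfl, fun g _ _ ω hω => hω.elim⟩
  | succ n ih =>
    intro H hH T hT hn hinv
    rcases T.eq_empty_or_nonempty with h0 | ⟨ω₀, hω₀⟩
    · subst h0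
      exact ⟨∅, subset_rfl, fun g _ _ ω hω => hω.elim⟩
    have hinv' : ∀ g ∈ H, ∀ ω, g • ω ∈ T → ω ∈ T := by
      intro g hg ω hω
      have := hinv g⁻¹ (inv_mem hg) _ hω
      rwa [inv_smul_smul] at this
    -- the orbit of `ω₀`
    let O : Set Ω := {ω | ∃ g ∈ H, g • ω₀ = ω}
    have hOT : O ⊆ T := by
      rintro _ ⟨g, hg, rfl⟩
      exact hinv g hg _ hω₀
    have hO₀ : ω₀ ∈ O := ⟨1, one_mem _, one_smul _ _⟩
    have hOinv : ∀ g ∈ H, ∀ ω ∈ O, g • ω ∈ O := by
      rintro g hg _ ⟨k, hk, rfl⟩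
      exact ⟨g * k, mul_mem hg hk, mul_smul _ _ _⟩
    have hOinv' : ∀ g ∈ H, ∀ ω, g • ω ∈ O → ω ∈ O := by
      intro g hg ω hω
      have := hOinv g⁻¹ (inv_mem hg) _ hω
      rwa [inv_smul_smul] at this
    by_cases hOT' : O = T
    swap
    · -- intransitive case
      have hss : O ⊂ T := lt_of_le_of_ne hOT hOT'
      have hc1 : O.ncard ≤ n := by
        have := Set.ncard_lt_ncard hss hT
        omega
      have hc2 : (T \ O).ncard ≤ n := by
        have h3 : T \ O ⊂ T := by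
          refine ⟨Set.sdiff_subset, fun h => ?_⟩
          exact (h hω₀).2 hO₀
        have := Set.ncard_lt_ncard h3 hT
        omega
      obtain ⟨Γ₁, h11, h12⟩ := ih H hH O (hT.subset hOT) hc1 hOinv
      obtain ⟨Γ₂, h21, h22⟩ := ih H hH (T \ O) (hT.subset Set.sdiff_subset) hc2
        (fun g hg ω hω => ⟨hinv g hg ω hω.1, fun h => hω.2 (hOinv' g hg ω h)⟩)
      refine ⟨Γ₁ ∪ Γ₂, Set.union_subset (h11.trans hOT) (h21.trans Set.sdiff_subset), ?_⟩
      intro g hg hgΓ ω hω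
      by_cases hωO : ω ∈ O
      · refine h12 g hg (fun ν => ?_) ω hωO
        by_cases hν : ν ∈ O
        · have h3 : ∀ μ ∈ O, (μ ∈ Γ₁ ∪ Γ₂ ↔ μ ∈ Γ₁) := fun μ hμ =>
            ⟨fun h => h.resolve_right fun h' => (h21 h').2 hμ, Or.inl⟩
          rw [← h3 _ hν, ← h3 _ (hOinv g hg _ hν)]
          exact hgΓ ν
        · constructor
          · intro h
            exact absurd (hOinv' g hg _ (h11 h)) hν
          · intro h
            exact absurd (h11 h) hν
      · refine h22 g hg (fun ν => ?_) ω ⟨hω, hωO⟩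
        by_cases hν : ν ∈ T \ O
        · have h3 : ∀ μ ∈ T \ O, (μ ∈ Γ₁ ∪ Γ₂ ↔ μ ∈ Γ₂) := fun μ hμ =>
            ⟨fun h => h.resolve_left fun h' => hμ.2 (h11 h'), Or.inr⟩
          rw [← h3 _ hν, ← h3 _ ⟨hinv g hg _ hν.1, fun h => hν.2 (hOinv' g hg _ h)⟩]
          exact hgΓ ν
        · constructor
          · intro h
            have h4 := h21 h
            exact absurd ⟨hinv' g hg _ h4.1, fun h5 => h4.2 (hOinv g hg _ h5)⟩ hν
          · intro h
            exact absurd (h21 h) hν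
    · -- transitive case
      by_cases hD : H ≤ MulAction.stabilizer G ω₀
      · refine ⟨∅, Set.empty_subset _, fun g hg _ ω hω => ?_⟩
        rw [← hOT'] at hω
        obtain ⟨k, hk, rfl⟩ := hω
        rw [show k • ω₀ = ω₀ from hD hk, show g • ω₀ = ω₀ from hD hg]
      obtain ⟨L, hLH, hDL, hHL, hLn⟩ := exists_normal_proper hH (MulAction.stabilizer G ω₀) hD
      have hLp : IsPGroup p L := hH.to_le hLH
      let Δ : Set Ω := {ω | ∃ l ∈ L, l • ω₀ = ω}
      have hΔ₀ : ω₀ ∈ Δ := ⟨1, one_mem _, one_smul _ _⟩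
      have hΔT : Δ ⊆ T := by
        rintro _ ⟨g, hg, rfl⟩
        exact hinv g (hLH hg) _ hω₀
      have hΔinv : ∀ l ∈ L, ∀ ω ∈ Δ, l • ω ∈ Δ := by
        rintro g hg _ ⟨k, hk, rfl⟩
        exact ⟨g * k, mul_mem hg hk, mul_smul _ _ _⟩
      have hΔinv' : ∀ l ∈ L, ∀ ω, l • ω ∈ Δ → ω ∈ Δ := by
        intro g hg ω hω
        have := hΔinv g⁻¹ (inv_mem hg) _ hω
        rwa [inv_smul_smul] at this
      -- an element of `H` mapping `ω₀` into `Δ` is in `L`
      have hmem : ∀ h ∈ H, h • ω₀ ∈ Δ → h ∈ L := by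
        rintro h hh ⟨l, hl, hlh⟩
        have h3 : l⁻¹ * h ∈ H ⊓ MulAction.stabilizer G ω₀ := by
          refine Subgroup.mem_inf.2 ⟨H.mul_mem (H.inv_mem (hLH hl)) hh, ?_⟩
          show (l⁻¹ * h) • ω₀ = ω₀
          rw [mul_smul, ← hlh, inv_smul_smul]
        have h4 := mul_mem hl (hDL h3)
        rwa [mul_inv_cancel_left] at h4
      -- `Δ` is smaller than `T`
      have hcΔ : Δ.ncard ≤ n := by
        have h3 : Δ ⊂ T := by
          refine ⟨hΔT, fun h => hHL fun h' hh' => ?_⟩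
          exact hmem h' hh' (h (hinv h' hh' _ hω₀))
        have := Set.ncard_lt_ncard h3 hT
        omega
      obtain ⟨A, hAΔ, hA⟩ := ih L hLp Δ (hT.subset hΔT) hcΔ hΔinv
      -- representatives for the blocks
      have hrep : ∀ ω ∈ T, ∃ h ∈ H, ∃ l ∈ L, l • h • ω₀ = ω := by
        intro ω hω
        rw [← hOT'] at hω
        obtain ⟨h, hh, rfl⟩ := hω
        exact ⟨h, hh, 1, one_mem _, one_smul _ _⟩
      have hrep' : ∃ ρ : Set Ω → G, ∀ ω ∈ T, ρ {ν | ∃ l ∈ L, l • ω = ν} ∈ H ∧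
          ∃ l ∈ L, l • ρ {ν | ∃ l ∈ L, l • ω = ν} • ω₀ = ω := by
        have h3 : ∀ X : Set Ω, ∃ h : G, ∀ ω ∈ T, X = {ν | ∃ l ∈ L, l • ω = ν} → h ∈ H ∧ ∃ l ∈ L, l • h • ω₀ = ω := by
          intro X
          by_cases hX : ∃ ω ∈ T, X = {ν | ∃ l ∈ L, l • ω = ν}
          · obtain ⟨ω, hω, rfl⟩ := hX
            obtain ⟨h, hh, l, hl, hlh⟩ := hrep ω hω
            refine ⟨h, fun ω' hω' hX' => ⟨hh, ?_⟩⟩
            have h4 : ω ∈ {ν | ∃ l ∈ L, l • ω = ν} := ⟨1, one_mem _, one_smul _ _⟩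
            rw [hX'] at h4
            obtain ⟨l', hl', hl''⟩ := h4
            refine ⟨l'⁻¹ * l, mul_mem (inv_mem hl') hl, ?_⟩
            rw [mul_smul, hlh, ← hl'', inv_smul_smul]
          · refine ⟨1, fun ω hω hX' => absurd ⟨ω, hω, hX'⟩ hX⟩
        choose ρ hρ using h3
        exact ⟨ρ, fun ω hω => hρ _ ω hω rfl⟩
      obtain ⟨ρ, hρ⟩ := hrep'
      let bl : Ω → Set Ω := fun ω => {ν | ∃ l ∈ L, l • ω = ν}
      have hbl : ∀ l ∈ L, ∀ ω, bl (l • ω) = bl ω := by
        intro l hl ω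
        ext ν
        constructor
        · rintro ⟨l', hl', rfl⟩
          exact ⟨l' * l, mul_mem hl' hl, mul_smul _ _ _⟩
        · rintro ⟨l', hl', rfl⟩
          refine ⟨l' * l⁻¹, mul_mem hl' (inv_mem hl), ?_⟩
          rw [mul_smul, inv_smul_smul]
      let Γ : Set Ω := {ω | ω ∈ T ∧ ((ω ∈ Δ ∧ ω ∉ A) ∨ (ω ∉ Δ ∧ (ρ (bl ω))⁻¹ • ω ∈ A))}
      have hΓΔ : ∀ ω ∈ Δ, (ω ∈ Γ ↔ ω ∉ A) := by
        intro ω hω
        constructor
        · rintro ⟨-, h | h⟩
          · exact h.2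
          · exact absurd hω h.1
        · exact fun h => ⟨hΔT hω, Or.inl ⟨hω, h⟩⟩
      -- blocks
      have hblock : ∀ h ∈ H, ∀ ω ∈ Δ, ∃ l ∈ L, h • ω = l • h • ω₀ := by
        rintro h hh _ ⟨l, hl, rfl⟩
        refine ⟨h * l * h⁻¹, hLn h hh l hl, ?_⟩
        simp only [mul_smul, inv_smul_smul]
      have hblock' : ∀ h ∈ H, ∀ l ∈ L, ∃ ω ∈ Δ, h • ω = l • h • ω₀ := by
        intro h hh l hl
        refine ⟨(h⁻¹ * l * h⁻¹⁻¹) • ω₀, ⟨_, hLn _ (inv_mem hh) l hl, rfl⟩, ?_⟩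
        simp only [mul_smul, inv_inv, smul_inv_smul]
      -- for `ω ∉ Δ` the representative of its block
      have hΓX : ∀ ω ∈ T, ω ∉ Δ → ∀ ν ∈ Δ, (ρ (bl ω) • ν ∈ Γ ↔ ν ∈ A) := by
        intro ω hω hωΔ ν hν
        obtain ⟨hh, l, hl, hlω⟩ := hρ ω hω
        change ρ (bl ω) ∈ H at hh
        change l • ρ (bl ω) • ω₀ = ω at hlω
        obtain ⟨l', hl', h3⟩ := hblock _ hh ν hν
        have h4 : bl (ρ (bl ω) • ν) = bl ω := by
          rw [h3, hbl l' hl', ← hbl l hl, hlω]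
        have h5 : ρ (bl ω) • ν ∉ Δ := by
          intro h6
          apply hωΔ
          have h7 : ω = (l * l'⁻¹) • ρ (bl ω) • ν := by
            rw [h3, mul_smul, inv_smul_smul, hlω]
          rw [h7]
          exact hΔinv _ (mul_mem hl (inv_mem hl')) _ h6
        constructor
        · rintro ⟨-, h | h⟩
          · exact absurd h.1 h5
          · have h6 := h.2
            rw [h4, inv_smul_smul] at h6
            exact h6
        · intro h
          refine ⟨hinv _ hh _ (hΔT hν), Or.inr ⟨h5, ?_⟩⟩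
          rw [h4, inv_smul_smul]
          exact h
      refine ⟨Γ, fun ω hω => hω.1, ?_⟩
      intro g hg hgΓ
      -- `g ∈ L`
      have hgL : g ∈ L := by
        by_contra hgL
        set ω₁ := g • ω₀ with hω₁
        have hω₁T : ω₁ ∈ T := hinv g hg _ hω₀
        have hω₁Δ : ω₁ ∉ Δ := fun h => hgL (hmem g hg h)
        obtain ⟨hh, l, hl, hlω⟩ := hρ ω₁ hω₁T
        change ρ (bl ω₁) ∈ H at hh
        change l • ρ (bl ω₁) • ω₀ = ω₁ at hlω
        set h := ρ (bl ω₁) with hhdef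
        -- `k = h⁻¹ g` is in `L`
        have hk : h⁻¹ * g ∈ L := by
          apply hmem _ (mul_mem (inv_mem hh) hg)
          rw [mul_smul, ← hω₁, ← hlω, ← mul_smul, ← mul_smul]
          refine ⟨h⁻¹ * l * h⁻¹⁻¹, hLn _ (inv_mem hh) l hl, ?_⟩
          rw [inv_inv]
        have h3 : ∀ ν ∈ Δ, ((h⁻¹ * g) • ν ∈ A ↔ ν ∉ A) := by
          intro ν hν
          rw [← hΓX ω₁ hω₁T hω₁Δ _ (hΔinv _ hk ν hν), ← hΓΔ ν hν, ← mul_smul, ← hhdef, mul_inv_cancel_left]
          exact hgΓ ν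
        have h4 : (fun ν => (h⁻¹ * g) • ν) '' (Δ \ A) = A := by
          ext ν
          constructor
          · rintro ⟨μ, hμ, rfl⟩
            exact (h3 μ hμ.1).2 hμ.2
          · intro hν
            have h5 : (h⁻¹ * g)⁻¹ • ν ∈ Δ := hΔinv _ (inv_mem hk) _ (hAΔ hν)
            refine ⟨(h⁻¹ * g)⁻¹ • ν, ⟨h5, ?_⟩, smul_inv_smul _ _⟩
            rw [← h3 _ h5, smul_inv_smul]
            exact hν
        have h5 : (Δ \ A).ncard = A.ncard := by
          conv_rhs => rw [← h4]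
          exact (Set.ncard_image_of_injective _ (MulAction.injective _)).symm
        have h6 : Δ.ncard = 2 * A.ncard := by
          have := Set.ncard_sdiff_add_ncard_of_subset hAΔ (hT.subset hΔT)
          omega
        -- the order of `Δ` is odd
        have h7 : Δ.ncard ∣ Nat.card L := by
          have h8 : Δ = MulAction.orbit L ω₀ := by
            ext ν
            constructor
            · rintro ⟨l, hl, rfl⟩
              exact ⟨⟨l, hl⟩, rfl⟩
            · rintro ⟨l, rfl⟩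
              exact ⟨l, l.2, rfl⟩
          rw [h8, ← Nat.card_coe_set_eq, Nat.card_congr (MulAction.orbitEquivQuotientStabilizer L ω₀)]
          exact Subgroup.card_quotient_dvd_card _
        obtain ⟨k, hk⟩ := hLp.exists_card_eq
        rw [hk, h6] at h7
        have h8 : 2 ∣ p ^ k := (dvd_mul_right 2 _).trans h7
        have h9 := Nat.prime_two.dvd_of_dvd_pow h8
        exact h2 ((Nat.prime_dvd_prime_iff_eq Nat.prime_two hp.out).1 h9).symm
      have hΔinvI : ∀ l ∈ L, ∀ ω, (l • ω ∈ Δ ↔ ω ∈ Δ) := fun l hl ω => ⟨hΔinv' l hl ω, hΔinv l hl ω⟩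
      intro ω hω
      by_cases hωΔ : ω ∈ Δ
      · refine hA g hgL (fun ν => ?_) ω hωΔ
        by_cases hν : ν ∈ Δ
        · have h3 := (hgΓ ν)
          rw [hΓΔ ν hν, hΓΔ _ (hΔinv g hgL ν hν)] at h3
          exact not_iff_not.1 h3
        · constructor
          · intro h
            exact absurd ((hΔinvI g hgL ν).1 (hAΔ h)) hν
          · intro h
            exact absurd (hAΔ h) hν
      · obtain ⟨hh, l, hl, hlω⟩ := hρ ω hω
        change ρ (bl ω) ∈ H at hh
        change l • ρ (bl ω) • ω₀ = ω at hlω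
        set h := ρ (bl ω) with hhdef
        have hg' : h⁻¹ * g * h⁻¹⁻¹ ∈ L := hLn _ (inv_mem hh) g hgL
        rw [inv_inv] at hg'
        have h3 := hA _ hg' (fun ν => by
          by_cases hν : ν ∈ Δ
          · rw [← hΓX ω hω hωΔ ν hν, ← hΓX ω hω hωΔ _ (hΔinv _ hg' ν hν), ← hhdef, ← hgΓ (h • ν)]
            simp only [mul_smul, smul_inv_smul]
          · constructor
            · intro h'
              exact absurd ((hΔinvI _ hg' ν).1 (hAΔ h')) hν
            · intro h'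
              exact absurd (hAΔ h') hν)
        obtain ⟨ν, hν, hν'⟩ := hblock' h hh l hl
        have h4 := h3 ν hν
        have h5 : ω = h • ν := by rw [hν', hlω]
        rw [h5]
        have h6 := congrArg (h • ·) h4
        simp only [mul_smul, smul_inv_smul] at h6
        exact h6

end Cfsg.Agent.H434.RC
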