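import Mathlib
import Cfsg.Agent.H527.NRow
import Cfsg.Agent.H254.CopDef

/-!
# Two elements of different orders moved by all automorphisms of order `p` (helper434)

After helper527's `NRow`: the elements are independent of the automorphism.
-/

set_option autoImplicit false
set_option linter.unusedSectionVars false

namespace Cfsg.Agent.H434.RC

open Subgroup Cfsg.Agent.H531 Cfsg.Agent.H254 Cfsg.Agent.H527.OC

universe u v

/-- all automorphisms of order `p` move `x` -/
def UBad (p : ℕ) {K : Type*} [Group K] (x : K) : Prop := ∀ α : MulAut K, orderOf α = p → α x ≠ x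

/-- two elements of different orders moved by all automorphisms of order `p` -/
def URow (p : ℕ) (K : Type*) [Group K] : Prop := ¬ p ∣ Nat.card K → ∀ α : MulAut K, orderOf α = p →
  ∃ a b : K, UBad p a ∧ UBad p b ∧ orderOf a ≠ orderOf b

theorem UBad.of_mem_zpowers {K : Type*} [Group K] {p : ℕ} {x e : K} (he : e ∈ zpowers x) (h : UBad p e) :
    UBad p x := by
  intro α hα hx
  obtain ⟨k, rfl⟩ := mem_zpowers_iff.1 he
  apply h α hα
  rw [map_zpow, hx]

theorem UBad.congr {K : Type u} [Group K] {L : Type v} [Group L] {p : ℕ} (f : K ≃* L) {x : K} (h : UBad p x) :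
    UBad p (f x) := by
  intro α hα hx
  apply h ((MulAut.congr f).symm α) (by rw [MulEquiv.orderOf_eq (MulAut.congr f).symm α]; exact hα)
  show f.symm (α (f x)) = x
  rw [hx, MulEquiv.symm_apply_apply]

theorem URow.congr {K : Type u} [Group K] {L : Type v} [Group L] {p : ℕ} (f : K ≃* L) (h : URow p K) : URow p L := by
  intro hp α hα
  obtain ⟨a, b, h1, h2, h3⟩ := h (by rw [Nat.card_congr f.toEquiv]; exact hp) ((MulAut.congr f).symm α)
    (by rw [MulEquiv.orderOf_eq (MulAut.congr f).symm α]; exact hα)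
  refine ⟨f a, f b, h1.congr f, h2.congr f, ?_⟩
  rw [MulEquiv.orderOf_eq, MulEquiv.orderOf_eq]
  exact h3

theorem URow.of_copTriv {K : Type*} [Group K] {p : ℕ} (hp : p.Prime) (h : CopTriv K) : URow p K := by
  intro hpK α hα
  exfalso
  have h1 := h (zpowers α) (by
    rw [Nat.card_zpowers, hα]
    exact (Nat.Prime.coprime_iff_not_dvd hp).2 hpK)
  have h2 : α = 1 := by
    have := mem_zpowers α
    rw [h1, mem_bot] at this
    exact this
  rw [h2, orderOf_one] at hα
  exact hp.one_lt.ne hα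

theorem zpowers_eq_of_cyclic {C : Type*} [Group C] [Finite C] [IsCyclic C] {a b : C} (h : orderOf a = orderOf b) :
    zpowers a = zpowers b := by
  classical
  have : Fintype C := Fintype.ofFinite C
  let n := orderOf a
  have hn : 0 < n := orderOf_pos a
  have key : ∀ c : C, orderOf c = n → ((zpowers c : Subgroup C) : Set C) = {x : C | x ^ n = 1} := by
    intro c hc
    have h1 : ((zpowers c : Subgroup C) : Set C) ⊆ {x : C | x ^ n = 1} := by
      intro x hx
      obtain ⟨k, rfl⟩ := mem_zpowers_iff.1 hx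
      show (c ^ k) ^ n = 1
      rw [← zpow_natCast, ← zpow_mul, mul_comm, zpow_mul, zpow_natCast, ← hc, pow_orderOf_eq_one, one_zpow]
    refine Set.eq_of_subset_of_ncard_le h1 ?_ (Set.toFinite _)
    have h2 := IsCyclic.card_pow_eq_one_le (α := C) hn
    have h3 : {x : C | x ^ n = 1}.ncard = (Finset.univ.filter fun x : C => x ^ n = 1).card := by
      rw [← Set.ncard_coe_finset]
      congr 1
      ext x
      simp
    rw [h3, ← Nat.card_coe_set_eq]
    refine h2.trans ?_
    have h4 : Nat.card (zpowers c) = n := by rw [Nat.card_zpowers, hc]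
    exact h4.ge
  apply SetLike.coe_injective
  rw [key a rfl, key b h.symm]

/-- **The key**: if the `p`-subgroups of `Aut K` are cyclic, an element moved inside the group it generates by one
automorphism of order `p` is moved by all of them. -/
theorem ubad_of_zpowers {K : Type*} [Group K] [Finite K] {p : ℕ} (hp : p.Prime) (hpK : ¬ p ∣ Nat.card K)
    (hc : CopCyc K) {α : MulAut K} (hα : orderOf α = p) {e : K} (h1 : α e ∈ zpowers e) (h2 : α e ≠ e) : UBad p e := by
  have : Fact p.Prime := ⟨hp⟩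
  intro β hβ hβe
  apply h2
  -- the normaliser of `⟨e⟩`
  let N : Subgroup (MulAut K) :=
    { carrier := {γ | ∀ z, γ z ∈ zpowers e ↔ z ∈ zpowers e}
      one_mem' := fun z => Iff.rfl
      mul_mem' := fun {a b} ha hb z => by rw [MulAut.mul_apply, ha, hb]
      inv_mem' := fun {a} ha z => by rw [← ha (a⁻¹ z), MulAut.apply_inv_self] }
  have hN : ∀ γ : MulAut K, γ e ∈ zpowers e → γ ∈ N := by
    intro γ hγ
    have hinj : (zpowers e).map (γ : MulAut K).toMonoidHom = zpowers e := by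
      apply Subgroup.eq_of_le_of_card_ge
      · rw [MonoidHom.map_zpowers, zpowers_le]
        exact hγ
      · rw [Subgroup.card_map_of_injective γ.injective]
    intro z
    constructor
    · intro hz
      rw [← hinj] at hz
      obtain ⟨w, hw, hwz⟩ := hz
      have : w = z := γ.injective hwz
      exact this ▸ hw
    · intro hz
      rw [← hinj]
      exact ⟨z, hz, rfl⟩
  have hαN : α ∈ N := hN α h1
  have hβN : β ∈ N := hN β (by rw [hβe]; exact mem_zpowers e)
  -- conjugation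
  have hconj : ∀ ν ∈ N, ∀ γ : MulAut K, γ e = e → (ν * γ * ν⁻¹) e = e := by
    intro ν hν γ hγ
    have h3 : ν⁻¹ e ∈ zpowers e := (N.inv_mem hν e).2 (mem_zpowers e)
    obtain ⟨k, hk⟩ := mem_zpowers_iff.1 h3
    rw [MulAut.mul_apply, MulAut.mul_apply, ← hk, map_zpow, hγ, hk, MulAut.apply_inv_self]
  have hfin : Finite (MulAut K) := inferInstance
  have hpow : ∀ γ : MulAut K, orderOf γ = p → IsPGroup p (zpowers γ) := by
    intro γ hγ
    refine IsPGroup.of_card (n := 1) ?_
    rw [Nat.card_zpowers, hγ, pow_one]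
  -- Sylow subgroups of `N`
  obtain ⟨Q, hQ⟩ := IsPGroup.exists_le_sylow (P := (zpowers β).subgroupOf N)
    ((hpow β hβ).comap_of_injective N.subtype N.subtype_injective)
  obtain ⟨R, hR⟩ := IsPGroup.exists_le_sylow (P := (zpowers α).subgroupOf N)
    ((hpow α hα).comap_of_injective N.subtype N.subtype_injective)
  obtain ⟨ν, hν⟩ := MulAction.exists_smul_eq N R Q
  -- `Q` is cyclic
  have hQc : IsCyclic ((Q : Subgroup N).map N.subtype) := by
    apply hc
    obtain ⟨k, hk⟩ := ((Q.isPGroup').map N.subtype).exists_card_eq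
    rw [hk]
    exact Nat.Coprime.pow_left _ ((Nat.Prime.coprime_iff_not_dvd hp).2 hpK)
  have hβQ : β ∈ (Q : Subgroup N).map N.subtype := by
    refine ⟨⟨β, hβN⟩, hQ ?_, rfl⟩
    exact Subgroup.mem_subgroupOf.2 (mem_zpowers β)
  have hαQ : (ν : MulAut K) * α * (ν : MulAut K)⁻¹ ∈ (Q : Subgroup N).map N.subtype := by
    refine ⟨ν * ⟨α, hαN⟩ * ν⁻¹, ?_, rfl⟩
    rw [← hν]
    have h3 : (⟨α, hαN⟩ : N) ∈ (R : Subgroup N) := hR (Subgroup.mem_subgroupOf.2 (mem_zpowers α))
    exact Subgroup.smul_mem_pointwise_smul _ (MulAut.conj ν) _ h3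
  -- both generate the subgroup of order `p`
  have hsub : zpowers ((ν : MulAut K) * α * (ν : MulAut K)⁻¹) = zpowers β := by
    have hcardα : orderOf ((ν : MulAut K) * α * (ν : MulAut K)⁻¹) = p := by
      rw [← hα]
      exact MulEquiv.orderOf_eq (MulAut.conj (ν : MulAut K)) α
    have h3 : zpowers (⟨_, hαQ⟩ : ((Q : Subgroup N).map N.subtype : Subgroup (MulAut K))) = zpowers ⟨β, hβQ⟩ := by
      apply zpowers_eq_of_cyclic
      rw [← Subgroup.orderOf_coe, ← Subgroup.orderOf_coe, hβ, hcardα]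
    have h4 := congrArg (Subgroup.map ((Q : Subgroup N).map N.subtype).subtype) h3
    rw [MonoidHom.map_zpowers, MonoidHom.map_zpowers] at h4
    exact h4
  -- conclude
  have h4 : (ν : MulAut K) * α * (ν : MulAut K)⁻¹ ∈ zpowers β := by rw [← hsub]; exact mem_zpowers _
  have h5 : ((ν : MulAut K) * α * (ν : MulAut K)⁻¹) e = e := by
    obtain ⟨k, hk⟩ := mem_zpowers_iff.1 h4
    rw [← hk]
    have h6 : β ∈ MulAction.stabilizer (MulAut K) e := hβe
    exact zpow_mem h6 k
  have h6 := hconj (ν : MulAut K)⁻¹ (N.inv_mem ν.2) _ h5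
  rwa [show (ν : MulAut K)⁻¹ * ((ν : MulAut K) * α * (ν : MulAut K)⁻¹) * (ν : MulAut K)⁻¹⁻¹ = α by group] at h6

theorem URow.of_tRow {K : Type*} [Group K] [Finite K] {r p : ℕ} (hr : r.Prime) (hp : p.Prime) (hcyc : CopCyc K)
    (h : H716.CopRow.TRow r K) : URow p K := by
  intro hpK α hα
  obtain ⟨e, u, hc, hru, hcop, h1, h2⟩ := h p hp hpK α hα
  have hb : UBad p e := ubad_of_zpowers hp hpK hcyc hα h1 h2
  have ho : orderOf (e * u) = orderOf e * orderOf u := hc.orderOf_mul_eq_mul_orderOf_of_coprime hcop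
  refine ⟨e, e * u, hb, ?_, ?_⟩
  · refine UBad.of_mem_zpowers ?_ hb
    obtain ⟨m, hm⟩ := exists_pow_eq_self_of_coprime (x := e) (n := orderOf u) hcop.symm
    refine mem_zpowers_iff.2 ⟨(orderOf u * m : ℕ), ?_⟩
    rw [zpow_natCast, pow_mul, hc.mul_pow, pow_orderOf_eq_one u, mul_one, hm]
  · rw [ho]
    intro h3
    have h4 : orderOf u = 1 := by
      have h5 : orderOf e * 1 = orderOf e * orderOf u := by rw [mul_one]; exact h3
      exact (Nat.eq_of_mul_eq_mul_left (orderOf_pos e) h5).symm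
    rw [h4] at hru
    exact hr.one_lt.ne' (Nat.dvd_one.1 hru)

/-- **Criterion for rank one groups.** -/
theorem URow.of_field {K : Type u} [Group K] [Finite K] {F : Type v} [Field F] [Finite F] {p : ℕ} (hp : p.Prime)
    (hcyc : CopCyc K)
    (h2 : 2 ∣ Nat.card K) (φ : (F ≃+* F) →* MulAut K) (hco : FieldConj φ) (h : Fˣ →* K)
    (hφ : ∀ (τ : F ≃+* F) (u : Fˣ), φ τ (h u) = h (Units.map (τ : F →* F) u))
    (hker : ∀ u : Fˣ, h u = 1 → u ^ 2 = 1) {r a m n : ℕ} (hr : r.Prime) (hF : Nat.card F = r ^ a) (hm : 2 ≤ m)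
    (hma : p ∣ a → ¬ p ∣ Nat.card K → 7 ≤ m * a ∧ n < m * p)
    (fix : ∀ (τ : F ≃+* F) (g : K) (l : ℕ), l.Prime → l ≠ 2 → orderOf g = l → φ τ g = g →
      ∃ M : Matrix.GeneralLinearGroup (Fin n) F, l ∣ orderOf M ∧ ∀ i j, τ ((M : Matrix (Fin n) (Fin n) F) i j) = M i j)
    (hcard : ∀ l : ℕ, l.Prime → (∀ k, l ∣ r ^ k - 1 ↔ m * a ∣ k) → l ∣ Nat.card K) : URow p K := by
  intro hpK α hα
  have hp2 : p ≠ 2 := fun h => hpK (h ▸ h2)
  have hfin : Finite (F ≃+* F) := Finite.of_injective (fun σ : F ≃+* F => (σ : F → F)) DFunLike.coe_injective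
  have ha0 : a ≠ 0 := by
    rintro rfl
    rw [pow_zero] at hF
    have := (Nat.card_eq_one_iff_unique.1 hF).1
    exact not_subsingleton F this
  -- orders of fixed matrices
  have hNa : ∀ τ : F ≃+* F, orderOf τ ∣ a ∧ ∀ (M : Matrix.GeneralLinearGroup (Fin n) F),
      (∀ i j, τ ((M : Matrix (Fin n) (Fin n) F) i j) = M i j) →
      ∀ l : ℕ, l.Prime → l ∣ orderOf M → ¬ l ∣ r → ∃ b i, b * orderOf τ = a ∧ 1 ≤ i ∧ i ≤ n ∧ l ∣ r ^ (b * i) - 1 := by
    intro τ
    set N := orderOf τ with hN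
    have hN0 : 0 < N := orderOf_pos τ
    have key : ∀ q₀ : ℕ, q₀ ^ N = Nat.card F → ∃ b, q₀ = r ^ b ∧ b * N = a := by
      intro q₀ hq₀
      rw [hF] at hq₀
      obtain ⟨b, -, rfl⟩ := (Nat.dvd_prime_pow hr).1 (hq₀ ▸ dvd_pow_self q₀ hN0.ne')
      refine ⟨b, rfl, ?_⟩
      rw [← pow_mul] at hq₀
      exact Nat.pow_right_injective hr.two_le hq₀
    constructor
    · obtain ⟨q₀, hq₀, -⟩ := dvd_of_fixed τ hN.symm (1 : Matrix.GeneralLinearGroup (Fin n) F) (fun i j => by
        show τ ((1 : Matrix (Fin n) (Fin n) F) i j) = (1 : Matrix (Fin n) (Fin n) F) i j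
        rw [Matrix.one_apply]
        split_ifs <;> simp)
      obtain ⟨b, -, hb⟩ := key q₀ hq₀
      exact ⟨b, by rw [← hb]; ring⟩
    · intro M hM l hl hlM hlr
      obtain ⟨q₀, hq₀, hq⟩ := dvd_of_fixed τ hN.symm M hM
      obtain ⟨b, rfl, hb⟩ := key q₀ hq₀
      obtain ⟨i, h1, h2, h3⟩ := hq l hl hlM (fun h => hlr (hl.dvd_of_dvd_pow h))
      exact ⟨b, i, hb, h1, h2, by rwa [pow_mul]⟩
  -- automorphisms of order `p`
  have hcon : ∀ β : MulAut K, orderOf β = p → ∃ (g : MulAut K) (τ : F ≃+* F), g * β * g⁻¹ = φ τ ∧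
      orderOf (φ τ) = p ∧ p ∣ orderOf τ := by
    intro β hβ
    obtain ⟨g, τ, hg⟩ := hco β (by rw [hβ]; exact (Nat.Prime.coprime_iff_not_dvd hp).2 hpK)
    have hφo : orderOf (φ τ) = p := by
      rw [← hg, ← hβ]
      exact MulEquiv.orderOf_eq (MulAut.conj g) β
    exact ⟨g, τ, hg, hφo, by rw [← hφo]; exact orderOf_map_dvd φ τ⟩
  obtain ⟨g, τ, hg, hφo, hpN⟩ := hcon α hα
  obtain ⟨hma7, hnmp⟩ := hma (hpN.trans (hNa τ).1) hpK
  -- the Zsigmondy prime
  obtain ⟨l, hl, hdiv, hl1, hlr⟩ := Lib.Zsigmondy.exists_primitive (a := r) (n := m * a) hr.two_le (by omega)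
    (fun h => by omega) (fun h => by omega)
  have hl2 : l ≠ 2 := by
    rintro rfl
    have := Nat.le_of_dvd (by norm_num) hl1
    omega
  have : Fact l.Prime := ⟨hl⟩
  obtain ⟨y, hy⟩ := exists_prime_orderOf_dvd_card' (G := K) l (hcard l hl hdiv)
  have hbady : UBad p y := by
    intro β hβ hβy
    obtain ⟨g', τ', hg', hφo', hpN'⟩ := hcon β hβ
    have hN0 : 0 < orderOf τ' := orderOf_pos τ'
    obtain ⟨M, hM1, hM2⟩ := fix τ' (g' y) l hl hl2 (by
      rw [← hy]
      exact MulEquiv.orderOf_eq g' y) (by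
        rw [← hg', MulAut.mul_apply, MulAut.mul_apply, MulAut.inv_apply_self, hβy])
    obtain ⟨b, i, hb, hi1, hi2, hi3⟩ := (hNa τ').2 M hM2 l hl hM1 hlr
    rw [hdiv] at hi3
    have hb0 : 0 < b := by
      rcases Nat.eq_zero_or_pos b with h | h
      · rw [h, zero_mul] at hb
        exact absurd hb.symm ha0
      · exact h
    have h3 := Nat.le_of_dvd (Nat.mul_pos hb0 hi1) hi3
    have h4 : b * i ≤ b * n := Nat.mul_le_mul_left b hi2
    have h5 : m * p ≤ m * orderOf τ' := Nat.mul_le_mul_left m (Nat.le_of_dvd hN0 hpN')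
    have h6 : b * (m * orderOf τ') ≤ b * n := by
      calc b * (m * orderOf τ') = m * (b * orderOf τ') := by ring
        _ = m * a := by rw [hb]
        _ ≤ b * n := h3.trans h4
    have h7 := Nat.le_of_mul_le_mul_left h6 hb0
    omega
  -- the torus element
  obtain ⟨u, hu⟩ := IsCyclic.exists_generator (α := Fˣ)
  obtain ⟨k, hk⟩ := MonoidHom.map_cyclic (Units.map (τ : F →* F))
  have h3 : φ τ (h u) = h u ^ k := by rw [hφ, hk u, map_zpow]
  have h4 : φ τ (h u) ≠ h u := by
    intro h4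
    have h5 : (u ^ (k - 1)) ^ 2 = 1 := by
      apply hker
      rw [map_zpow, zpow_sub_one, ← h3, h4, mul_inv_cancel]
    have h7 : τ (u : F) = (u : F) * ((u ^ (k - 1) : Fˣ) : F) := by
      have h8 := congrArg Units.val (hk u)
      have h9 : u ^ k = u * u ^ (k - 1) := by
        rw [zpow_sub_one, mul_comm, inv_mul_cancel_right]
      rw [h9] at h8
      exact h8
    have h10 : ((u ^ (k - 1) : Fˣ) : F) ^ 2 = 1 := by
      have := congrArg (fun z : Fˣ => (z : F)) h5
      simpa using this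
    have h11 : τ (τ (u : F)) = (u : F) := by
      have h12 : τ ((u ^ (k - 1) : Fˣ) : F) = ((u ^ (k - 1) : Fˣ) : F) := by
        rcases (sq_eq_one_iff.1 h10) with h | h
        · rw [h, map_one]
        · rw [h, map_neg, map_one]
      rw [h7, map_mul, h12, h7, mul_assoc, ← sq, h10, mul_one]
    have h12 : τ ^ 2 = 1 := by
      apply RingEquiv.ext
      intro x
      show (τ ^ 2) x = x
      rcases eq_or_ne x 0 with hx | hx
      · rw [hx, map_zero]
      · obtain ⟨j, hj⟩ := mem_zpowers_iff.1 (hu (Units.mk0 x hx))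
        have h13 : Units.map ((τ ^ 2 : F ≃+* F) : F →* F) u = u := Units.ext h11
        have h14 : Units.map ((τ ^ 2 : F ≃+* F) : F →* F) (u ^ j) = u ^ j := by
          rw [map_zpow, h13]
        rw [hj] at h14
        exact congrArg Units.val h14
    have h13 : (φ τ) ^ 2 = 1 := by rw [← map_pow, h12, map_one]
    have h14 := orderOf_dvd_of_pow_eq_one h13
    rw [hφo] at h14
    exact hp2 ((Nat.prime_dvd_prime_iff_eq hp Nat.prime_two).1 h14)
  have hbade : UBad p (h u) :=
    ubad_of_zpowers hp hpK hcyc hφo (by rw [h3]; exact zpow_mem (mem_zpowers _) k) h4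
  have hne : orderOf (h u) ≠ orderOf y := by
    rw [hy]
    intro he
    have h5 : l ∣ r ^ a - 1 := by
      rw [← he]
      have h6 : orderOf (h u) ∣ orderOf u := orderOf_map_dvd h u
      have h7 : orderOf u ∣ Nat.card Fˣ := orderOf_dvd_natCard u
      rw [Nat.card_units, hF] at h7
      exact h6.trans h7
    rw [hdiv] at h5
    have h6 := Nat.le_of_dvd (Nat.pos_of_ne_zero ha0) h5
    have h7 : 2 * a ≤ m * a := Nat.mul_le_mul_right a hm
    omega
  exact ⟨h u, y, hbade, hbady, hne⟩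

end Cfsg.Agent.H434.RC
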