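import Mathlib
import Cfsg.Agent.H434.RC.URow
import Cfsg.Agent.H527.NRowOne

/-!
# `URow` for `PSL₂(q)`, `Sz(q)`, `²G₂(q)` (helper434, after helper527's `NRowOne`)
-/

set_option autoImplicit false
set_option linter.unusedSectionVars false

namespace Cfsg.Agent.H434.RC

open Subgroup Cfsg.Agent.H531 Cfsg.Agent.H254 Cfsg.Agent.H527.OC

universe u v

section PSL

open Cfsg.Agent.ClassicalGeometry.AutPSL.Auto Cfsg.Agent.ClassicalGeometry.AutPSL.Main
open Cfsg.Agent.ClassicalGeometry.AutPSL.Root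
open Cfsg.Agent.KFacts.MulOdd.TypeA Cfsg.Agent.ChevalleyStructure.SL2Hom Cfsg.Agent.H531.RMPsl

variable {F : Type v} [Field F]

theorem uRow_psl2 [Fintype F] (h4 : 4 ≤ Fintype.card F)
    [Finite (Matrix.ProjectiveSpecialLinearGroup (Fin 2) F)]
    [IsSimpleGroup (Matrix.ProjectiveSpecialLinearGroup (Fin 2) F)]
    (hna : ¬ IsMulCommutative (Matrix.ProjectiveSpecialLinearGroup (Fin 2) F))
    (h2 : 2 ∣ Nat.card (Matrix.ProjectiveSpecialLinearGroup (Fin 2) F)) {p : ℕ} (hp : p.Prime)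
    (hcyc : CopCyc (Matrix.ProjectiveSpecialLinearGroup (Fin 2) F)) :
    URow p (Matrix.ProjectiveSpecialLinearGroup (Fin 2) F) := by
  obtain ⟨ρ, hρ, -⟩ := H254.exists_ringAut F
  have hco := H254.PSL.copIn le_rfl (fun _ => h4) hna h2 ρ hρ
  have hab : (0 : Fin 2) ≠ 1 := by decide
  obtain ⟨r, hchar⟩ := CharP.exists F
  obtain ⟨a, hr, ha⟩ := FiniteField.card F r
  have hq2 : 2 ≤ Fintype.card F := by omega
  let s : Matrix.SpecialLinearGroup (Fin 2) F →* Matrix.ProjectiveSpecialLinearGroup (Fin 2) F :=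
    (QuotientGroup.mk' _).comp (blk hab)
  have hs : ∀ t : F, s (up t) = 1 → t = 0 := by
    intro t ht
    have h1 : blk hab (up t) ∈ Subgroup.center (Matrix.SpecialLinearGroup (Fin 2) F) :=
      (QuotientGroup.eq_one_iff _).1 ht
    rw [Matrix.SpecialLinearGroup.mem_center_iff] at h1
    obtain ⟨r, -, hr⟩ := h1
    have h3 := congrFun (congrFun hr 0) 1
    have h4 : (blk hab (up t)).1 0 1 = t := by
      show NN (0 : Fin 2) 1 (up t).1 0 1 = t
      simp [NN, up]
    rw [h4] at h3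
    rw [← h3]
    simp
  refine URow.of_field (r := r) (a := a) (m := 2) (n := 2) hp hcyc h2 ((lift).comp fld)
    (FieldConj.of_copIn (ρ := ρ) _ hco) (s.comp (diagSL F)) ?_ ?_ hr (by rw [Nat.card_eq_fintype_card, ha]) le_rfl
    ?_ ?_ ?_
  · intro τ u
    show lift (fld τ) (pr (blk hab (diagSL F u))) = pr (blk hab (diagSL F _))
    rw [lift_pr]
    congr 1
    show Matrix.SpecialLinearGroup.map (τ : F →+* F) (blk hab (diagSL F u)) = _
    rw [map_blk, map_diagSL]
  · intro u hu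
    exact sq_of_ker s (hs · ·) u hu
  · intro hpa hpK
    have hp3 : p ≠ 3 := fun h => hpK (h ▸ ThreePrime.OrderThree.three_dvd_card_psl F)
    have hp2 : p ≠ 2 := fun h => hpK (h ▸ h2)
    have hp5 : 5 ≤ p := by
      by_contra h
      have h5 := hp.two_le
      have h6 : p = 4 := by omega
      rw [h6] at hp
      exact absurd hp (by decide)
    have h7 : p ≤ (a : ℕ) := Nat.le_of_dvd a.pos hpa
    exact ⟨by omega, by omega⟩
  · intro τ g l hl hl2 hg hfix
    obtain ⟨G₀, rfl⟩ := QuotientGroup.mk'_surjective _ g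
    -- a lift of order `l`
    have h1 : G₀ ^ l ∈ Subgroup.center (Matrix.SpecialLinearGroup (Fin 2) F) := by
      rw [← QuotientGroup.eq_one_iff]
      have : (QuotientGroup.mk' (Subgroup.center (Matrix.SpecialLinearGroup (Fin 2) F)) G₀) ^ l = 1 := by
        rw [← hg, pow_orderOf_eq_one]
      rw [← map_pow] at this
      exact this
    have hcsq : ∀ z ∈ Subgroup.center (Matrix.SpecialLinearGroup (Fin 2) F), z ^ 2 = 1 := by
      intro z hz
      rw [Matrix.SpecialLinearGroup.mem_center_iff] at hz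
      obtain ⟨c, hc, hcz⟩ := hz
      apply Subtype.ext
      rw [Matrix.SpecialLinearGroup.coe_pow, ← hcz, ← map_pow]
      rw [Fintype.card_fin] at hc
      rw [hc, map_one]
      rfl
    have hodd : Odd l := hl.odd_of_ne_two hl2
    obtain ⟨k, hk⟩ := hodd
    set G₁ := G₀ ^ (l + 1) with hG₁
    have hG₁l : G₁ ^ l = 1 := by
      rw [hG₁, ← pow_mul, show (l + 1) * l = l * 2 * (k + 1) by rw [hk]; ring, pow_mul, pow_mul, hcsq _ h1, one_pow]
    have hG₁g : QuotientGroup.mk' (Subgroup.center (Matrix.SpecialLinearGroup (Fin 2) F)) G₁ =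
        QuotientGroup.mk' (Subgroup.center (Matrix.SpecialLinearGroup (Fin 2) F)) G₀ := by
      rw [hG₁, map_pow, pow_succ, ← hg, pow_orderOf_eq_one, one_mul]
    rw [← hG₁g] at hfix hg
    have hz : G₁⁻¹ * Matrix.SpecialLinearGroup.map (τ : F →+* F) G₁ ∈
        Subgroup.center (Matrix.SpecialLinearGroup (Fin 2) F) := by
      rw [← QuotientGroup.eq_one_iff]
      have h3 : QuotientGroup.mk' (Subgroup.center (Matrix.SpecialLinearGroup (Fin 2) F))
          (Matrix.SpecialLinearGroup.map (τ : F →+* F) G₁) =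
          QuotientGroup.mk' (Subgroup.center (Matrix.SpecialLinearGroup (Fin 2) F)) G₁ := hfix
      show QuotientGroup.mk' (Subgroup.center (Matrix.SpecialLinearGroup (Fin 2) F)) (G₁⁻¹ * _) = 1
      rw [map_mul, map_inv, h3, inv_mul_cancel]
    set z := G₁⁻¹ * Matrix.SpecialLinearGroup.map (τ : F →+* F) G₁ with hzdef
    have hGz : Matrix.SpecialLinearGroup.map (τ : F →+* F) G₁ = G₁ * z := by rw [hzdef]; group
    have hcomm : Commute G₁ z := (Subgroup.mem_center_iff.1 hz G₁)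
    have hz1 : z = 1 := by
      have h5 : (Matrix.SpecialLinearGroup.map (τ : F →+* F) G₁) ^ l = 1 := by
        rw [← map_pow, hG₁l, map_one]
      rw [hGz, hcomm.mul_pow, hG₁l, one_mul, hk, pow_succ, pow_mul, hcsq z hz, one_pow, one_mul] at h5
      exact h5
    rw [hz1, mul_one] at hGz
    refine ⟨Matrix.SpecialLinearGroup.toGL G₁, ?_, fun i j => ?_⟩
    · rw [orderOf_injective _ Matrix.SpecialLinearGroup.toGL_injective, ← hg]
      exact orderOf_map_dvd _ _
    · have := congrArg (fun A : Matrix.SpecialLinearGroup (Fin 2) F => A.1 i j) hGz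
      exact this
  · intro l hl hdiv
    have h5 : l ∣ Fintype.card F ^ 2 - 1 := by
      rw [ha, ← pow_mul, hdiv]
      exact ⟨1, by ring⟩
    rcases Nat.even_or_odd (Fintype.card F) with he | ho
    · rw [SmallSimple.PSLTwoPart.card_psl_two_even he]
      exact Dvd.dvd.mul_left h5 _
    · have h6 := SmallSimple.PSLTwoPart.card_psl_two_odd ho
      have h7 : l ∣ 2 * Nat.card (Matrix.ProjectiveSpecialLinearGroup (Fin 2) F) := by
        rw [h6]
        exact Dvd.dvd.mul_left h5 _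
      rcases hl.dvd_mul.1 h7 with h8 | h8
      · exact (h8.trans h2)
      · exact h8

end PSL

section Sz

open Cfsg.Lie Cfsg.Agent.H967.CopSz Cfsg.Agent.H71.RealMoveTw
open Cfsg.Agent.LieRecognition.SzMatrix Cfsg.Agent.H70.SzOut

variable {K : Type*} [Field K] [Fintype K] {m : ℕ}

theorem uRow_sz (hm : 1 ≤ m) (hF : Fintype.card K = 2 ^ (2 * m + 1)) {p : ℕ} (hp : p.Prime)
    (hcyc : CopCyc ↥(Cfsg.Lie.Sz K (2 ^ (m + 1)))) :
    URow p ↥(Cfsg.Lie.Sz K (2 ^ (m + 1))) := by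
  let H := good hF
  let h : Kˣ →* ↥(Cfsg.Lie.Sz K (2 ^ (m + 1))) :=
    { toFun := H.d
      map_one' := H.d_one
      map_mul' := fun a b => (H.d_mul a b).symm }
  have hw1 : H.w ≠ 1 := fun hw => H.w_not_mem_borel (by rw [hw]; exact one_mem _)
  have h2 := two_dvd H.w_mul_w hw1
  have hcard := (Cfsg.Agent.S1163.result hm hF).1
  refine URow.of_field (r := 2) (a := 2 * m + 1) (m := 4) (n := 4) hp hcyc h2 _
    (FieldConj.of_row (row_sz hm hF)) h ?_ ?_ Nat.prime_two (by rw [Nat.card_eq_fintype_card, hF]) (by norm_num)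
    ?_ ?_ ?_
  · intro τ u
    exact Cfsg.Agent.H70.SzOut.fieldAut_d H τ u
  · intro u hu
    have : u = 1 := H.d_inj (hu.trans H.d_one.symm)
    rw [this, one_pow]
  · intro _ hpK
    have hp2 : p ≠ 2 := fun h => hpK (h ▸ h2)
    have := hp.two_le
    omega
  · intro τ g l _ _ hg hfix
    refine ⟨(g : Matrix.GeneralLinearGroup (Fin 4) K), ?_, fun i j => ?_⟩
    · rw [Subgroup.orderOf_coe, hg]
    · have := congrArg (fun z : ↥(Cfsg.Lie.Sz K (2 ^ (m + 1))) =>
        ((z : Matrix.GeneralLinearGroup (Fin 4) K) : Matrix (Fin 4) (Fin 4) K) i j) hfix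
      exact this
  · intro l hl hdiv
    rw [hcard]
    have h5 : l ∣ 2 ^ (4 * (2 * m + 1)) - 1 := (hdiv _).2 dvd_rfl
    have h6 : ¬ l ∣ 2 ^ (2 * (2 * m + 1)) - 1 := by
      rw [hdiv]
      intro h
      have := Nat.le_of_dvd (by omega) h
      omega
    have h7 : 2 ^ (4 * (2 * m + 1)) - 1 = (2 ^ (2 * (2 * m + 1)) - 1) * (2 ^ (2 * (2 * m + 1)) + 1) := by
      have h8 : 2 ^ (4 * (2 * m + 1)) = 2 ^ (2 * (2 * m + 1)) * 2 ^ (2 * (2 * m + 1)) := by
        rw [← pow_add]; congr 1; ring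
      rw [h8]
      have h9 : 1 ≤ 2 ^ (2 * (2 * m + 1)) := Nat.one_le_two_pow
      obtain ⟨t, ht⟩ := Nat.exists_eq_add_of_le h9
      rw [ht]
      have : (1 + t) * (1 + t) - 1 = t * (2 + t) := by
        have : (1 + t) * (1 + t) = t * (2 + t) + 1 := by ring
        omega
      rw [this]
      congr 1 <;> omega
    rw [h7] at h5
    rcases hl.dvd_mul.1 h5 with h8 | h8
    · exact absurd h8 h6
    · have h9 : 2 ^ (2 * (2 * m + 1)) = (2 ^ (2 * m + 1)) ^ 2 := by rw [← pow_mul]; congr 1; ring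
      rw [h9] at h8
      exact Dvd.dvd.mul_left h8 _

end Sz

section Ree

open Cfsg.Lie Cfsg.Agent.H967.CopSz Cfsg.Agent.H71.RealMoveTw
open Cfsg.Agent.ChevalleyStructure.Ree.Gens Cfsg.Agent.ChevalleyStructure.Ree Cfsg.Agent.LieRecognition
  Cfsg.Agent.LieRecognition.ReeAbs Cfsg.Agent.ChevalleyStructure.Ree.Normal

variable {K : Type*} [Field K] [Fintype K] {m : ℕ}

theorem uRow_ree (hm : 1 ≤ m) (hK : Fintype.card K = 3 ^ (2 * m + 1)) {p : ℕ} (hp : p.Prime)
    (hcyc : CopCyc ↥(Cfsg.Lie.twistedG2 K (3 ^ m))) :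
    URow p ↥(Cfsg.Lie.twistedG2 K (3 ^ m)) := by
  obtain ⟨θ, c⟩ := exists_ctx hK
  have D := Data.data c
  have h2 := two_dvd D.n_n D.n_ne_one
  have hcard := Cfsg.Agent.ChevalleyStructure.ReeCount.card_twistedG2 (m := m) hK
  refine URow.of_field (r := 3) (a := 2 * m + 1) (m := 6) (n := Fintype.card chevG2.Idx) hp hcyc h2 _
    (FieldConj.of_row (row_ree hm hK)) (MonoidHom.mk' _ D.h_mul) ?_ ?_ Nat.prime_three
    (by rw [Nat.card_eq_fintype_card, hK]) (by norm_num) ?_ ?_ ?_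
  · intro τ u
    exact (Cfsg.Agent.H71.FldAut.reeFld c).onH τ u
  · intro u hu
    have : u = 1 := ReeSplit.h_injective D (hu.trans (map_one _).symm)
    rw [this, one_pow]
  · intro _ hpK
    have hp2 : p ≠ 2 := fun h => hpK (h ▸ h2)
    have := hp.two_le
    have hc : Fintype.card chevG2.Idx = 14 := by decide +kernel
    rw [hc]
    omega
  · intro τ g l _ _ hg hfix
    obtain ⟨M', h1, h3⟩ := exists_fin (g : Matrix.GeneralLinearGroup chevG2.Idx K) τ (fun i j => by
      have := congrArg (fun z : ↥(Cfsg.Lie.twistedG2 K (3 ^ m)) =>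
        ((z : Matrix.GeneralLinearGroup chevG2.Idx K) : Matrix chevG2.Idx chevG2.Idx K) i j) hfix
      exact this)
    refine ⟨M', ?_, h3⟩
    rw [h1, Subgroup.orderOf_coe, hg]
  · intro l hl hdiv
    rw [hcard]
    have h5 : l ∣ 3 ^ (6 * (2 * m + 1)) - 1 := (hdiv _).2 dvd_rfl
    have h6 : ¬ l ∣ 3 ^ (3 * (2 * m + 1)) - 1 := by
      rw [hdiv]
      intro h
      have := Nat.le_of_dvd (by omega) h
      omega
    have h7 : 3 ^ (6 * (2 * m + 1)) - 1 = (3 ^ (3 * (2 * m + 1)) - 1) * (3 ^ (3 * (2 * m + 1)) + 1) := by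
      have h8 : 3 ^ (6 * (2 * m + 1)) = 3 ^ (3 * (2 * m + 1)) * 3 ^ (3 * (2 * m + 1)) := by
        rw [← pow_add]; congr 1; ring
      rw [h8]
      have h9 : 1 ≤ 3 ^ (3 * (2 * m + 1)) := Nat.one_le_pow _ _ (by norm_num)
      obtain ⟨t, ht⟩ := Nat.exists_eq_add_of_le h9
      rw [ht]
      have : (1 + t) * (1 + t) - 1 = t * (2 + t) := by
        have : (1 + t) * (1 + t) = t * (2 + t) + 1 := by ring
        omega
      rw [this]
      congr 1 <;> omega
    rw [h7] at h5
    rcases hl.dvd_mul.1 h5 with h8 | h8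
    · exact absurd h8 h6
    · have h9 : 3 ^ (3 * (2 * m + 1)) = (3 ^ (2 * m + 1)) ^ 3 := by rw [← pow_mul]; congr 1; ring
      rw [h9] at h8
      exact Dvd.dvd.mul_left h8 _

end Ree

end Cfsg.Agent.H434.RC
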