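import Mathlib
import Cfsg.Agent.H434.RC.URowOne
import Cfsg.Agent.H527.NRowAll
import Cfsg.Agent.H254.CopAll

/-!
# `URow` for the known simple groups (helper434, after helper527's `NRowAll`)

`uRow` : a known non-abelian finite simple group `K` satisfies `URow p K` for every prime `p`;
`exists_pair` : two nontrivial elements of different orders moved by all automorphisms of order `p`.
-/

set_option autoImplicit false

namespace Cfsg.Agent.H434.RC

open Cfsg Cfsg.Agent.H254 Cfsg.Agent.H527.OC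

universe u v

/-- Transport from a model. -/
theorem URow.of_model {M : Type v} [Group M] {p : ℕ}
    (h : Finite M → IsSimpleGroup M → ¬ IsMulCommutative M → 2 ∣ Nat.card M → CopCyc M → URow p M)
    (K : Type u) [Group K] [Finite K] [IsSimpleGroup K] (hK : ¬ IsMulCommutative K) (hc : CopCyc K)
    (e : Nonempty (K ≃* M)) : URow p K := by
  obtain ⟨e⟩ := e
  have h1 : Finite M := Finite.of_equiv K e.toEquiv
  have hsm : IsSimpleGroup M := e.symm.isSimpleGroup
  have hna : ¬ IsMulCommutative M := by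
    intro hc
    apply hK
    refine ⟨⟨fun a b => e.injective ?_⟩⟩
    rw [map_mul, map_mul]
    exact hc.is_comm.comm _ _
  exact URow.congr e.symm (h h1 hsm hna (by rw [← Nat.card_congr e.toEquiv]; exact NRow.two_dvd K hK) (hc.of_equiv e))

theorem uRow_alternating {p : ℕ} (hp : p.Prime) (K : Type u) [Group K] [Finite K] [IsSimpleGroup K]
    (hK : ¬ IsMulCommutative K) (hcyc : CopCyc K) (h : IsAlternating K) : URow p K := by
  obtain ⟨n, hn, ⟨e⟩⟩ := h
  by_cases h6 : n = 6
  · subst h6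
    haveI : Fact (Nat.Prime 3) := ⟨Nat.prime_three⟩
    letI : Fintype (GaloisField 3 2) := Fintype.ofFinite _
    have hF : Fintype.card (GaloisField 3 2) = 9 := by
      rw [← Nat.card_eq_fintype_card, GaloisField.card 3 2 (by norm_num)]; norm_num
    obtain ⟨e'⟩ := S0254.result (F := GaloisField 3 2) hF
    exact URow.of_model (M := Matrix.ProjectiveSpecialLinearGroup (Fin 2) (GaloisField 3 2))
      (fun _ _ h3 h4 hc => uRow_psl2 (by omega) h3 h4 hp hc) K hK hcyc ⟨e.trans e'.symm⟩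
  · exact URow.of_copTriv hp ((H254.Alt.copTriv hn h6).of_equiv e.symm)

/-- **`URow` for the known non-abelian simple groups.** -/
theorem uRow {p : ℕ} (hp : p.Prime) (K : Type u) [Group K] [Finite K] [IsSimpleGroup K]
    (hna : ¬ IsMulCommutative K) (hk : IsKnownSimple' K) : URow p K := by
  have hcyc : CopCyc K := CopAll.known K hna hk
  rcases hk with hk | hk | hk | hk | hk | hk | hk | hk | hk | hk
  · exfalso
    apply hna
    have h1 : Fact (Nat.card K).Prime := ⟨hk⟩
    have h2 : IsCyclic K := isCyclic_of_prime_card (p := Nat.card K) rfl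
    exact IsCyclic.isMulCommutative
  · exact uRow_alternating hp K hna hcyc hk
  · obtain ⟨F, _, _, n, hn, h4, e⟩ := hk
    obtain ⟨r, hr, hc⟩ := exists_char F
    rcases eq_or_lt_of_le hn with h2 | h2
    · subst h2
      exact URow.of_model (fun _ _ h1 h2 hc => uRow_psl2 (h4 rfl) h1 h2 hp hc) K hna hcyc e
    · exact URow.of_model (fun _ _ _ _ hc => URow.of_tRow hr.out hp hc (H164.TRowPSL.tRow_psl h2)) K hna hcyc e
  · obtain ⟨F, _, _, m, hm, h3, e⟩ := hk
    obtain ⟨r, hr, hc⟩ := exists_char F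
    exact URow.of_model (fun _ _ _ _ hc => URow.of_tRow hr.out hp hc (H164.TRowPSp.tRow_psp hm)) K hna hcyc e
  · obtain ⟨F, _, _, n, q, hF, hn, h32, e⟩ := hk
    obtain ⟨r, hr, hc⟩ := exists_char F
    exact URow.of_model (fun _ _ _ _ hc => URow.of_tRow hr.out hp hc (H471.TRowPSU.tRow_psu hF hn)) K hna hcyc e
  · obtain ⟨F, _, _, m, hm, hodd, e⟩ := hk
    obtain ⟨r, hr, hc⟩ := exists_char F
    exact URow.of_model (fun _ _ _ _ hc => URow.of_tRow hr.out hp hc (H989.TRowOrth.tRow_po_odd hm hodd)) K hna hcyc e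
  · obtain ⟨F, _, _, m, hm, e⟩ := hk
    obtain ⟨r, hr, hc⟩ := exists_char F
    exact URow.of_model (fun _ _ _ _ hc => URow.of_tRow hr.out hp hc (H989.TRowOrth.tRow_po_plus hm)) K hna hcyc e
  · obtain ⟨F, _, _, m, a, b, hm, hab, e⟩ := hk
    obtain ⟨r, hr, hc⟩ := exists_char F
    exact URow.of_model (fun _ _ _ _ hc => URow.of_tRow hr.out hp hc (H989.TRowOrth.tRow_po_minus hm a b hab)) K hna hcyc e
  · rcases hk with hk | hk | hk | hk | hk | hk | hk | hk | hk | hk | hk
    · obtain ⟨F, _, _, h3, e⟩ := hk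
      obtain ⟨r, hr, hc⟩ := exists_char F
      exact URow.of_tRow hr.out hp hcyc (H164.TRowExc.tRow_exc ⟨F, inferInstance, inferInstance, hc, Or.inl ⟨h3, e⟩⟩)
    · obtain ⟨F, _, _, e⟩ := hk
      obtain ⟨r, hr, hc⟩ := exists_char F
      exact URow.of_tRow hr.out hp hcyc (H164.TRowExc.tRow_exc ⟨F, inferInstance, inferInstance, hc, Or.inr (Or.inl e)⟩)
    · obtain ⟨F, _, _, e⟩ := hk
      obtain ⟨r, hr, hc⟩ := exists_char F
      exact URow.of_tRow hr.out hp hcyc (H164.TRowExc.tRow_exc ⟨F, inferInstance, inferInstance, hc, Or.inr (Or.inr (Or.inl e))⟩)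
    · obtain ⟨F, _, _, e⟩ := hk
      obtain ⟨r, hr, hc⟩ := exists_char F
      exact URow.of_tRow hr.out hp hcyc (H164.TRowExc.tRow_exc ⟨F, inferInstance, inferInstance, hc, Or.inr (Or.inr (Or.inr (Or.inl e)))⟩)
    · obtain ⟨F, _, _, e⟩ := hk
      obtain ⟨r, hr, hc⟩ := exists_char F
      exact URow.of_tRow hr.out hp hcyc (H164.TRowExc.tRow_exc ⟨F, inferInstance, inferInstance, hc, Or.inr (Or.inr (Or.inr (Or.inr e)))⟩)
    · obtain ⟨F, _, _, q, hq, hF, e⟩ := hk
      obtain ⟨r, hr, hc⟩ := exists_char F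
      exact URow.of_tRow hr.out hp hcyc (H680.TRowTw.tRow_tw ⟨F, inferInstance, inferInstance, hc, q, hq, Or.inl ⟨hF, e⟩⟩)
    · obtain ⟨F, _, _, q, hq, hF, e⟩ := hk
      obtain ⟨r, hr, hc⟩ := exists_char F
      exact URow.of_tRow hr.out hp hcyc (H680.TRowTw.tRow_tw ⟨F, inferInstance, inferInstance, hc, q, hq, Or.inr ⟨hF, e⟩⟩)
    · obtain ⟨F, _, _, m, hm, hF, e⟩ := hk
      exact URow.of_model (fun _ _ _ _ hc => uRow_sz hm hF hp hc) K hna hcyc e
    · obtain ⟨F, _, _, m, hm, hF, e⟩ := hk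
      exact URow.of_model (fun _ _ _ _ hc => uRow_ree hm hF hp hc) K hna hcyc e
    · exact URow.of_tRow Nat.prime_two hp hcyc (H60.TRowTwF4.tRow_tf4 hk)
    · exact URow.of_copTriv hp (H254.CopSpor.tits_triv hk)
  · exact URow.of_copTriv hp (H254.CopSpor.sporadic_triv hk)

/-- **Two nontrivial elements of different orders moved by all automorphisms of order `p`.** -/
theorem exists_pair {p : ℕ} (K : Type u) [Group K] [Finite K] [IsSimpleGroup K] (hna : ¬ IsMulCommutative K)
    (hp : ¬ p ∣ Nat.card K) (h : URow p K) :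
    ∃ a b : K, UBad p a ∧ UBad p b ∧ orderOf a ≠ orderOf b ∧ a ≠ 1 ∧ b ≠ 1 := by
  by_cases hα : ∃ α : MulAut K, orderOf α = p
  · obtain ⟨α, hα⟩ := hα
    obtain ⟨a, b, ha, hb, hab⟩ := h hp α hα
    refine ⟨a, b, ha, hb, hab, ?_, ?_⟩
    · rintro rfl
      exact ha α hα (map_one α)
    · rintro rfl
      exact hb α hα (map_one α)
  · push Not at hα
    have h1 : ∃ a b : K, a ≠ 1 ∧ b ≠ 1 ∧ orderOf a ≠ orderOf b := by
      by_contra hcon
      push Not at hcon
      apply hna
      exact ⟨⟨fun a b => comm_of_same_order (T := K) hcon a b⟩⟩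
    obtain ⟨a, b, ha, hb, hab⟩ := h1
    exact ⟨a, b, fun α h => absurd h (hα α), fun α h => absurd h (hα α), hab, ha, hb⟩

end Cfsg.Agent.H434.RC
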